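import Mathlib
import Cfsg.Agent.Lib.Helper24.ES3.Defs

set_option autoImplicit false

namespace Cfsg.Agent.Lib.Helper24.ES3

variable {G : Type*} [Group G]

/-- B1 helper : elements of the commutator subgroup are powers of `z`. -/
theorem B1_mem_commutator {p : ℕ} {P : Subgroup G} {z : G} (h : Dat p P z) (w : ↥P)
    (h2 : w ∈ commutator ↥P) : ∃ k : ℕ, (w : G) = z ^ k := by
  rw [commutator_eq_closure] at h2
  induction h2 using Subgroup.closure_induction'' with
  | mem x hx =>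
    obtain ⟨a, b, rfl⟩ := hx
    obtain ⟨k, hk⟩ := h.comm a a.2 b b.2
    exact ⟨k, by rw [← hk]; simp [commutatorElement_def]⟩
  | inv_mem x hx =>
    obtain ⟨a, b, rfl⟩ := hx
    obtain ⟨k, hk⟩ := h.comm b b.2 a a.2
    exact ⟨k, by rw [← hk]; simp [commutatorElement_def, mul_assoc]⟩
  | one => exact ⟨0, by simp⟩
  | mul x y _ _ hx hy =>
    obtain ⟨k, hk⟩ := hx
    obtain ⟨l, hl⟩ := hy
    exact ⟨k + l, by rw [pow_add, ← hk, ← hl]; rfl⟩

/-- B1 -/
theorem cls_eq_zero {p : ℕ} {P : Subgroup G} {z : G} (h : Dat p P z) (w : ↥P)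
    (hw : cls P w = 0) : ∃ k : ℕ, (w : G) = z ^ k := by
  have h1 : Abelianization.of w = 1 := hw
  have h2 : w ∈ commutator ↥P := by
    rw [← Abelianization.ker_of]; exact h1
  exact B1_mem_commutator h w h2

end Cfsg.Agent.Lib.Helper24.ES3
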