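import Mathlib
import Cfsg.Agent.Lib.Helper24.ES3.Defs
import Cfsg.Agent.Lib.Helper74.ES3.B1

set_option autoImplicit false

namespace Cfsg.Agent.Lib.Helper24.ES3

variable {G : Type*} [Group G]

/-- B5 -/
theorem cls_smul {p : ℕ} [Fact p.Prime] {P : Subgroup G} {z : G} (h : Dat p P z)
    [Module (ZMod p) (VV P)] (w w' : ↥P) (c : ZMod p) (hc : cls P w' = c • cls P w) :
    ∃ k : ℕ, (w' : G) = (w : G) ^ c.val * z ^ k := by
  have h1 : c • cls P w = cls P (w ^ c.val) := by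
    rw [cls_pow, ← Nat.cast_smul_eq_nsmul (ZMod p), ZMod.natCast_zmod_val]
  have h2 : cls P ((w ^ c.val)⁻¹ * w') = 0 := by
    rw [cls_mul, hc, h1]
    have : cls P ((w ^ c.val)⁻¹) = - cls P (w ^ c.val) := rfl
    rw [this]
    simp
  obtain ⟨k, hk⟩ := cls_eq_zero h _ h2
  refine ⟨k, ?_⟩
  rw [← hk]
  simp

end Cfsg.Agent.Lib.Helper24.ES3
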