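import Mathlib
import Cfsg.Agent.Lib.Helper24.ES3.Defs
import Cfsg.Agent.Lib.Helper2.ES3.A2
import Cfsg.Agent.Lib.Helper2.ES3.A4

set_option autoImplicit false

namespace Cfsg.Agent.Lib.Helper24.ES3

variable {G : Type*} [Group G]

/-- F2 helper -/
theorem F2_L1 {x y z : G} (hz : z ≠ 1) (hxy : x * y * x⁻¹ * y⁻¹ = z) (t : ℕ) :
    ¬ Commute y (x * y ^ t) := by
  intro hc
  apply hz
  have h1 : y * x = x * y := by
    have h2 : y * (x * y ^ t) = (x * y ^ t) * y := hc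
    have h3 : y * x * y ^ t = x * y * y ^ t := by
      rw [mul_assoc, h2, mul_assoc, mul_assoc, ← pow_succ, ← pow_succ']
    exact mul_right_cancel h3
  rw [← hxy, ← h1]
  group

/-- F2 helper -/
theorem F2_L2 {p : ℕ} [Fact p.Prime] {P : Subgroup G} {z : G} (h : Dat p P z)
    {x y : G} (hx : x ∈ P) (hy : y ∈ P) (hxy : x * y * x⁻¹ * y⁻¹ = z) {s t : ℕ}
    (hst : s < t) (ht : t < p) : ¬ Commute (x * y ^ s) (x * y ^ t) := by
  intro hc
  obtain ⟨r, rfl⟩ := Nat.exists_eq_add_of_lt hst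
  have h2 : (x * y ^ s) * (x * y ^ (s + r + 1)) = (x * y ^ (s + r + 1)) * (x * y ^ s) := hc
  have h3 : x * y ^ (r + 1) = y ^ (r + 1) * x := by
    have e1 : y ^ (s + r + 1) = y ^ s * y ^ (r + 1) := by rw [← pow_add]; congr 1
    have e2 : y ^ (s + r + 1) = y ^ (r + 1) * y ^ s := by rw [← pow_add]; congr 1; omega
    have h4 : x * y ^ s * (x * y ^ (r + 1)) * y ^ s = x * y ^ s * (y ^ (r + 1) * x) * y ^ s := by
      calc x * y ^ s * (x * y ^ (r + 1)) * y ^ s
          = (x * y ^ s) * (x * (y ^ (r + 1) * y ^ s)) := by simp only [mul_assoc]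
        _ = (x * y ^ s) * (x * y ^ (s + r + 1)) := by rw [e2]
        _ = (x * y ^ (s + r + 1)) * (x * y ^ s) := h2
        _ = (x * (y ^ s * y ^ (r + 1))) * (x * y ^ s) := by rw [e1]
        _ = x * y ^ s * (y ^ (r + 1) * x) * y ^ s := by simp only [mul_assoc]
    exact mul_left_cancel (mul_right_cancel h4)
  have h5 := conj_pow_of_comm h hx hy (e := 1) (by rw [pow_one]; exact hxy) 1 (r + 1) 0 0
  simp only [pow_one, pow_zero, mul_one, one_mul] at h5
  rw [h3] at h5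
  have h6 : z ^ (r + 1) = 1 := by
    rw [← h5]; group
  have ho : orderOf z = p := orderOf_eq_prime (h.exp z h.zP) h.z1
  have h7 := orderOf_dvd_of_pow_eq_one h6
  rw [ho] at h7
  have := Nat.le_of_dvd (Nat.succ_pos r) h7
  omega

/-- F2 -/
theorem seven {p : ℕ} [Fact p.Prime] (hp : 7 ≤ p) {P : Subgroup G} {z : G} (h : Dat p P z) :
    ∃ w : Fin 7 → G, (∀ j, w j ∈ P) ∧ (∀ j, ∀ k : ℕ, w j ≠ z ^ k) ∧
      (∀ i j, i ≠ j → ∀ m k : ℕ, w j ≠ w i ^ m * z ^ k) := by
  obtain ⟨x, hx, y, hy, hxy⟩ := exists_noncomm h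
  obtain ⟨w, hw⟩ : ∃ w : Fin 7 → G, w = Fin.cases y (fun t : Fin 6 => x * y ^ (t : ℕ)) :=
    ⟨_, rfl⟩
  have hwP : ∀ j, w j ∈ P := by
    intro j
    rw [hw]
    refine Fin.cases ?_ (fun t => ?_) j
    · exact hy
    · exact P.mul_mem hx (P.pow_mem hy _)
  have hnc : ∀ i j, i ≠ j → ¬ Commute (w i) (w j) := by
    intro i j
    rw [hw]
    refine Fin.cases ?_ (fun s => ?_) i <;> refine Fin.cases ?_ (fun t => ?_) j
    · intro hij; exact absurd rfl hij
    · intro _; exact F2_L1 h.z1 hxy _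
    · intro _ hc; exact F2_L1 h.z1 hxy _ hc.symm
    · intro hij
      have hst : (s : ℕ) ≠ (t : ℕ) := by
        intro e
        apply hij
        rw [Fin.ext e]
      have hs := s.2
      have ht := t.2
      rcases lt_or_gt_of_ne hst with h1 | h1
      · exact F2_L2 h hx hy hxy h1 (by omega)
      · intro hc
        exact F2_L2 h hx hy hxy h1 (by omega) hc.symm
  have hzc : ∀ u ∈ P, ∀ k : ℕ, Commute u (z ^ k) := fun u hu k =>
    Commute.pow_right (h.zc u hu) k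
  refine ⟨w, hwP, ?_, ?_⟩
  · intro j k hjk
    obtain ⟨i, hi⟩ : ∃ i : Fin 7, i ≠ j := exists_ne j
    apply hnc i j hi
    rw [hjk]
    exact hzc _ (hwP i) k
  · intro i j hij m k hjk
    apply hnc i j hij
    rw [hjk]
    exact Commute.mul_right (Commute.pow_right (Commute.refl _) m) (hzc _ (hwP i) k)

end Cfsg.Agent.Lib.Helper24.ES3
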