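import Mathlib
import Cfsg.Agent.Lib.Helper24.ES3.Defs
import Cfsg.Agent.Lib.Helper2.ES3.A2
import Cfsg.Agent.Lib.Helper2.ES3.A4
import Cfsg.Agent.Lib.Helper74.ES3.B5

set_option autoImplicit false

namespace Cfsg.Agent.Lib.Helper24.ES3

variable {G : Type*} [Group G]

/-- B6 -/
theorem chi_of_scalar {p : ℕ} [Fact p.Prime] {P : Subgroup G} {z : G} (h : Dat p P z)
    [Module (ZMod p) (VV P)] (χ : NP P →* (ZMod p)ˣ)
    (hχ : ∀ n : NP P, (n : G) * z * (n : G)⁻¹ = z ^ ((χ n : (ZMod p)ˣ) : ZMod p).val)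
    (n : NP P) (s : (ZMod p)ˣ) (hs : ∀ u : VV P, rho p P n u = (s : ZMod p) • u) :
    χ n = s ^ 2 := by
  obtain ⟨x, hx, y, hy, hxy⟩ := exists_noncomm h
  have hn : ∀ u ∈ P, (n : G) * u * (n : G)⁻¹ ∈ P := fun u hu =>
    (Subgroup.mem_normalizer_iff.mp n.2 u).mp hu
  have key : ∀ u (hu : u ∈ P), ∃ k : ℕ,
      (n : G) * u * (n : G)⁻¹ = u ^ (s : ZMod p).val * z ^ k := by
    intro u hu
    have h1 := rho_cls' p P n ⟨u, hu⟩ ⟨_, hn u hu⟩ rfl
    rw [hs] at h1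
    exact cls_smul h ⟨u, hu⟩ ⟨_, hn u hu⟩ _ h1.symm
  obtain ⟨k, hk⟩ := key x hx
  obtain ⟨l, hl⟩ := key y hy
  have h2 := conj_pow_of_comm h hx hy (e := 1) (by rw [pow_one]; exact hxy)
    (s : ZMod p).val (s : ZMod p).val k l
  rw [← hk, ← hl] at h2
  have h3 : (n : G) * z * (n : G)⁻¹ = z ^ (1 * (s : ZMod p).val * (s : ZMod p).val) := by
    rw [← h2, ← hxy]
    group
  rw [hχ n] at h3
  have ho : orderOf z = p := orderOf_eq_prime (h.exp z h.zP) h.z1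
  rw [pow_eq_pow_iff_modEq, ho, ← ZMod.natCast_eq_natCast_iff] at h3
  apply Units.ext
  push_cast at h3
  simp only [ZMod.natCast_val, ZMod.cast_id', id_eq, one_mul] at h3
  rw [h3]
  push_cast
  ring

end Cfsg.Agent.Lib.Helper24.ES3
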